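import Mathlib
import Cfsg.Agent.S0206
import Cfsg.Agent.PGroup.Basic
import Cfsg.Agent.PGroup.Critical
import Cfsg.Prelude.Def_Transfer

/-!
A group with central `|Q'| = p`, an elementary abelian maximal subgroup and an element of order `p` outside it
is a group of order `p³` times an elementary abelian group.
-/

set_option autoImplicit false
set_option linter.style.haveILetI false

open Cfsg
open scoped commutatorElement

namespace CfsgLib.GenExtra

universe u

lemma commGroup_to_type {A : Type u} [CommGroup A] [Finite A] :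
    ∃ (B : Type) (_ : CommGroup B), Nonempty (A ≃* B) := by
  obtain ⟨n, ⟨e⟩⟩ := Finite.exists_equiv_fin A
  exact ⟨Fin n, e.symm.commGroup, ⟨@MulEquiv.symm _ _ (e.symm.commGroup.toMul) _ (Equiv.mulEquiv e.symm)⟩⟩

lemma group_to_type {A : Type u} [Group A] [Finite A] : ∃ (B : Type) (_ : Group B), Nonempty (A ≃* B) := by
  obtain ⟨n, ⟨e⟩⟩ := Finite.exists_equiv_fin A
  exact ⟨Fin n, e.symm.group, ⟨@MulEquiv.symm _ _ (e.symm.group.toMul) _ (Equiv.mulEquiv e.symm)⟩⟩

variable {Q : Type u} [Group Q] [Finite Q] {p : ℕ} [hp : Fact p.Prime]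

/-- The decomposition. -/
theorem exists_split (M : Subgroup Q) (hMexp : ∀ m ∈ M, m ^ p = 1) (hMab : ∀ a ∈ M, ∀ b ∈ M, a * b = b * a)
    (hMidx : M.index = p) {z : Q} (hzo : orderOf z = p) (hzM : z ∈ M) (hzc : ∀ w, w * z = z * w)
    (hcomm : ∀ a b : Q, a * b * a⁻¹ * b⁻¹ ∈ Subgroup.zpowers z) {g x : Q} (hgM : g ∉ M) (hgp : g ^ p = 1)
    (hxM : x ∈ M) (hgx : g * x ≠ x * g) :
    ∃ (E A : Subgroup Q), (∀ a ∈ A, ∀ b ∈ A, a * b = b * a) ∧ (∀ a ∈ A, a ^ p = 1) ∧ g ∈ E ∧ x ∈ E ∧ z ∈ E ∧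
      (∀ e ∈ E, ∃ i j k : ℤ, e = g ^ i * x ^ j * z ^ k) ∧
      (∀ i j k : ℤ, g ^ i * x ^ j * z ^ k = 1 → (p : ℤ) ∣ i ∧ (p : ℤ) ∣ j ∧ (p : ℤ) ∣ k) ∧
      Nonempty (Q ≃* E × A) := by
  classical
  have hpZ : Prime (p : ℤ) := Nat.prime_iff_prime_int.1 hp.out
  have hzp : ∀ k : ℤ, z ^ ((p : ℤ) * k) = 1 := fun k => by
    rw [zpow_mul, zpow_natCast, ← hzo, pow_orderOf_eq_one, one_zpow]
  have hzck : ∀ (k : ℤ) (w : Q), w * z ^ k = z ^ k * w := fun k w => (show Commute w z from hzc w).zpow_right k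
  have hswap : ∀ a b : Q, ∃ k : ℤ, a * b = b * a * z ^ k := fun a b => by
    obtain ⟨k, hk⟩ := Subgroup.mem_zpowers_iff.1 (hcomm a b)
    exact ⟨k, by rw [hzck k, hk]; group⟩
  obtain ⟨c, hc⟩ := hswap g x
  have hcp : ¬ (p : ℤ) ∣ c := by
    rintro ⟨d, rfl⟩
    exact hgx (by rw [hc, hzp, mul_one])
  -- the normal forms
  let E : Subgroup Q :=
    { carrier := {w | ∃ i j k : ℤ, w = g ^ i * x ^ j * z ^ k}
      one_mem' := ⟨0, 0, 0, by simp⟩
      mul_mem' := by
        rintro _ _ ⟨i, j, k, rfl⟩ ⟨i', j', k', rfl⟩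
        obtain ⟨d, hd⟩ := hswap (x ^ j) (g ^ i')
        refine ⟨i + i', j + j', d + (k + k'), ?_⟩
        calc g ^ i * x ^ j * z ^ k * (g ^ i' * x ^ j' * z ^ k')
            = g ^ i * x ^ j * (z ^ k * g ^ i') * x ^ j' * z ^ k' := by group
          _ = g ^ i * (x ^ j * g ^ i') * (z ^ k * x ^ j') * z ^ k' := by rw [← hzck k]; group
          _ = g ^ i * (g ^ i' * x ^ j * z ^ d) * (x ^ j' * z ^ k) * z ^ k' := by rw [hd, hzck k (x ^ j')]
          _ = g ^ i * g ^ i' * x ^ j * (z ^ d * x ^ j') * z ^ k * z ^ k' := by group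
          _ = g ^ i * g ^ i' * x ^ j * (x ^ j' * z ^ d) * z ^ k * z ^ k' := by rw [hzck d (x ^ j')]
          _ = _ := by group
      inv_mem' := by
        rintro _ ⟨i, j, k, rfl⟩
        obtain ⟨d, hd⟩ := hswap (x ^ (-j)) (g ^ (-i))
        refine ⟨-i, -j, d + -k, ?_⟩
        calc (g ^ i * x ^ j * z ^ k)⁻¹ = z ^ (-k) * (x ^ (-j) * g ^ (-i)) := by group
          _ = z ^ (-k) * (g ^ (-i) * x ^ (-j) * z ^ d) := by rw [hd]
          _ = g ^ (-i) * x ^ (-j) * z ^ d * z ^ (-k) := (hzck (-k) _).symm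
          _ = _ := by group }
  have hgE : g ∈ E := ⟨1, 0, 0, by simp⟩
  have hxE : x ∈ E := ⟨0, 1, 0, by simp⟩
  have hzE : z ∈ E := ⟨0, 0, 1, by simp⟩
  -- conjugation by `g` on `M`
  have hgi : ∀ i : ℤ, g ^ i ∈ M → (p : ℤ) ∣ i := by
    intro i hi
    by_contra hnd
    obtain ⟨a, b, hab⟩ := hpZ.coprime_iff_not_dvd.2 hnd
    refine hgM ?_
    have : g = (g ^ i) ^ b := by
      rw [← zpow_mul, show i * b = 1 + (p : ℤ) * (-a) by linarith, zpow_add, zpow_one, zpow_mul, zpow_natCast,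
        hgp, one_zpow, mul_one]
    rw [this]; exact M.zpow_mem hi b
  have hgpow : ∀ j : ℤ, g * x ^ j = x ^ j * g * z ^ (c * j) := by
    intro j
    induction j using Int.induction_on with
    | zero => simp
    | succ j ih =>
      rw [zpow_add, zpow_one, ← mul_assoc, ih]
      calc x ^ (j : ℤ) * g * z ^ (c * (j : ℤ)) * x = x ^ (j : ℤ) * (g * x) * z ^ (c * (j : ℤ)) := by
            rw [mul_assoc _ (z ^ _), ← hzck (c * (j : ℤ)) x]; group
        _ = _ := by rw [hc]; group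
    | pred j ih =>
      have h1 : g * x⁻¹ = x⁻¹ * g * z ^ (-c) := by
        have h2 : x⁻¹ * (g * x) * x⁻¹ = x⁻¹ * (x * g * z ^ c) * x⁻¹ := by rw [hc]
        rw [zpow_neg, eq_mul_inv_iff_mul_eq]
        calc g * x⁻¹ * z ^ c = g * (z ^ c * x⁻¹) := by rw [mul_assoc, hzck]
          _ = x⁻¹ * (x * g * z ^ c) * x⁻¹ := by group
          _ = x⁻¹ * (g * x) * x⁻¹ := h2.symm
          _ = _ := by group
      rw [zpow_sub, zpow_one, ← mul_assoc, ih]
      calc x ^ (-(j : ℤ)) * g * z ^ (c * (-(j : ℤ))) * x⁻¹ = x ^ (-(j : ℤ)) * (g * x⁻¹) * z ^ (c * (-(j : ℤ))) := by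
            rw [mul_assoc _ (z ^ _), ← hzck (c * (-(j : ℤ))) x⁻¹]; group
        _ = _ := by rw [h1]; group
  -- a complement of `⟨z⟩` in `C_M(g)`
  set K : Subgroup Q := M ⊓ Subgroup.centralizer {g}
  obtain ⟨A, hA, hAmax⟩ := (Set.toFinite {A : Subgroup Q | A ≤ K ∧ z ∉ A}).exists_maximal
    ⟨⊥, bot_le, fun h => by
      rw [Subgroup.mem_bot] at h; rw [h, orderOf_one] at hzo; exact hp.out.ne_one hzo.symm⟩
  have hAM : A ≤ M := hA.1.trans inf_le_left
  have hAg : ∀ a ∈ A, a * g = g * a := fun a ha => Subgroup.mem_centralizer_singleton_iff.1 (hA.1 ha).2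
  have hzK : z ∈ K := ⟨hzM, Subgroup.mem_centralizer_singleton_iff.2 (hzc g).symm⟩
  have hKdec : ∀ w ∈ K, ∃ a ∈ A, ∃ k : ℤ, w = a * z ^ k := by
    intro w hw
    by_cases hwA : w ∈ A
    · exact ⟨w, hwA, 0, by simp⟩
    have hnew : z ∈ A ⊔ Subgroup.zpowers w := by
      by_contra hz'
      exact hwA (hAmax ⟨sup_le hA.1 (Subgroup.zpowers_le.2 hw), hz'⟩ le_sup_left
        (Subgroup.mem_sup_right (Subgroup.mem_zpowers w)))
    have hn : Subgroup.zpowers w ≤ Subgroup.normalizer (A : Set Q) := Subgroup.zpowers_le.2 (by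
      refine Subgroup.mem_normalizer_iff.2 fun y => ⟨fun hy => ?_, fun hy => ?_⟩
      · rw [hMab w hw.1 y (hAM hy), mul_inv_cancel_right]; exact hy
      · have hy' : w * y * w⁻¹ ∈ M := hAM hy
        have hyM : y ∈ M := by
          have := M.mul_mem (M.mul_mem (M.inv_mem hw.1) hy') hw.1
          simpa [mul_assoc] using this
        rwa [hMab w hw.1 y hyM, mul_inv_cancel_right] at hy)
    rw [← SetLike.mem_coe, Subgroup.coe_mul_of_right_le_normalizer_left _ _ hn] at hnew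
    obtain ⟨a, ha, _, ⟨i, rfl⟩, haz⟩ := hnew
    have hip : ¬ (p : ℤ) ∣ i := by
      rintro ⟨d, rfl⟩
      refine hA.2 ?_
      rw [← haz]
      simp only [zpow_mul, zpow_natCast, hMexp w hw.1, one_zpow, mul_one]
      exact ha
    obtain ⟨s, t, hst⟩ := hpZ.coprime_iff_not_dvd.2 hip
    refine ⟨a ^ (-t), A.zpow_mem ha _, t, ?_⟩
    change a * w ^ i = z at haz
    rw [← haz, (show Commute a (w ^ i) from hMab a (hAM ha) _ (M.zpow_mem hw.1 i)).mul_zpow, ← mul_assoc,
      ← zpow_add, neg_add_cancel, zpow_zero, one_mul, ← zpow_mul,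
      show i * t = 1 + (p : ℤ) * (-s) by linarith, zpow_add, zpow_one, zpow_mul, zpow_natCast, hMexp w hw.1,
      one_zpow, mul_one]
  have hunique : ∀ i j k : ℤ, g ^ i * x ^ j * z ^ k ∈ A → (p : ℤ) ∣ i ∧ (p : ℤ) ∣ j ∧ (p : ℤ) ∣ k := by
    intro i j k he
    have hi : (p : ℤ) ∣ i := by
      refine hgi i ?_
      have := M.mul_mem (hAM he) (M.inv_mem (M.mul_mem (M.zpow_mem hxM j) (M.zpow_mem hzM k)))
      simpa [mul_assoc] using this
    obtain ⟨d, rfl⟩ := hi
    rw [zpow_mul, zpow_natCast, hgp, one_zpow, one_mul] at he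
    have hj : (p : ℤ) ∣ j := by
      have h1 := hAg _ he
      rw [mul_assoc, ← hzck k g, ← mul_assoc, ← mul_assoc, hgpow j] at h1
      -- `z ^ (c * j) = 1`
      have h2 : z ^ (c * j) = 1 := by
        have h3 : z ^ k = z ^ (c * j) * z ^ k := mul_left_cancel (h1.trans (mul_assoc _ _ _))
        exact mul_right_cancel (b := z ^ k) (by rw [one_mul]; exact h3.symm)
      rw [← orderOf_dvd_iff_zpow_eq_one, hzo] at h2
      exact (hpZ.dvd_or_dvd h2).resolve_left hcp
    obtain ⟨e, rfl⟩ := hj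
    rw [zpow_mul, zpow_natCast, hMexp x hxM, one_zpow, one_mul] at he
    refine ⟨dvd_mul_right _ _, dvd_mul_right _ _, ?_⟩
    by_contra hk
    obtain ⟨a, b, hab⟩ := hpZ.coprime_iff_not_dvd.2 hk
    refine hA.2 ?_
    have : z = (z ^ k) ^ b := by
      rw [← zpow_mul, show k * b = 1 + (p : ℤ) * (-a) by linarith, zpow_add, zpow_one, hzp, mul_one]
    rw [this]; exact A.zpow_mem he b
  have hEA : ∀ e ∈ E, ∀ a ∈ A, Commute e a := by
    rintro _ ⟨i, j, k, rfl⟩ a ha
    refine ((((show Commute a g from hAg a ha).zpow_right i).mul_right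
      ((show Commute a x from hMab a (hAM ha) x hxM).zpow_right j)).mul_right (hzck k a)).symm
  have hE1 : ∀ e ∈ E, e ∈ A → e = 1 := by
    rintro _ ⟨i, j, k, rfl⟩ he
    obtain ⟨⟨a, rfl⟩, ⟨b, rfl⟩, ⟨d, rfl⟩⟩ := hunique i j k he
    rw [zpow_mul, zpow_natCast, hgp, one_zpow, zpow_mul, zpow_natCast, hMexp x hxM, one_zpow, hzp, mul_one, mul_one]
  let f : E × A →* Q := MonoidHom.noncommCoprod E.subtype A.subtype fun e a => hEA e e.2 a a.2
  have hfi : Function.Injective f := by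
    refine (injective_iff_map_eq_one f).2 ?_
    rintro ⟨⟨e, he⟩, ⟨a, ha⟩⟩ h
    change e * a = 1 at h
    have he' : e = 1 := hE1 e he (by rw [eq_inv_of_mul_eq_one_left h]; exact A.inv_mem ha)
    subst he'
    rw [one_mul] at h
    subst h
    rfl
  have hfs : Function.Surjective f := by
    intro w
    -- `w = g ^ i * m`
    obtain ⟨i, hi⟩ : ∃ i : ℤ, g ^ (-i) * w ∈ M := by
      have hle : M ≤ M ⊔ Subgroup.zpowers g := le_sup_left
      have htop : M ⊔ Subgroup.zpowers g = ⊤ := by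
        refine Subgroup.index_eq_one.1 ?_
        have h := Subgroup.relIndex_mul_index hle
        rw [hMidx] at h
        rcases (Nat.dvd_prime hp.out).1 (Dvd.intro_left _ h) with h1 | h1
        · exact h1
        · exfalso
          rw [h1] at h
          exact hgM ((Subgroup.relIndex_eq_one.1 (Nat.eq_of_mul_eq_mul_right hp.out.pos (by rw [h, one_mul])))
            (Subgroup.mem_sup_right (Subgroup.mem_zpowers g)))
      haveI : M.Normal := ⟨fun m hm y => by
        obtain ⟨k, hk⟩ := hswap y m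
        have h9 : y * m * y⁻¹ = m * z ^ k := by
          rw [hk, mul_assoc (m * y), ← hzck k y⁻¹]; group
        rw [h9]
        exact M.mul_mem hm (M.zpow_mem hzM k)⟩
      have hw : w ∈ M ⊔ Subgroup.zpowers g := htop ▸ Subgroup.mem_top w
      rw [sup_comm] at hw
      obtain ⟨_, ⟨i, rfl⟩, m, hm, rfl⟩ := Subgroup.mem_sup_of_normal_right.1 hw
      exact ⟨i, by simpa using hm⟩
    set m := g ^ (-i) * w with hmdef
    obtain ⟨d, hd⟩ := hswap g m
    obtain ⟨a, b, hab⟩ := hpZ.coprime_iff_not_dvd.2 hcp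
    -- `m x ^ (-d b)` commutes with `g`
    have hK : x ^ (-(d * b)) * m ∈ K := by
      refine ⟨M.mul_mem (M.zpow_mem hxM _) hi, Subgroup.mem_centralizer_singleton_iff.2 (Eq.symm ?_)⟩
      calc g * (x ^ (-(d * b)) * m) = g * x ^ (-(d * b)) * m := (mul_assoc _ _ _).symm
        _ = x ^ (-(d * b)) * g * z ^ (c * -(d * b)) * m := by rw [hgpow]
        _ = x ^ (-(d * b)) * g * (z ^ (c * -(d * b)) * m) := by group
        _ = x ^ (-(d * b)) * (g * m) * z ^ (c * -(d * b)) := by rw [← hzck]; group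
        _ = x ^ (-(d * b)) * m * g * (z ^ d * z ^ (c * -(d * b))) := by rw [hd]; group
        _ = x ^ (-(d * b)) * m * g * z ^ ((p : ℤ) * (a * d)) := by
          rw [← zpow_add, show d + c * -(d * b) = (p : ℤ) * (a * d) by linear_combination -d * hab]
        _ = _ := by rw [hzp, mul_one]
    obtain ⟨a', ha', k, hk⟩ := hKdec _ hK
    refine ⟨(⟨g ^ i * x ^ (d * b) * z ^ k, i, d * b, k, rfl⟩, ⟨a', ha'⟩), ?_⟩
    show g ^ i * x ^ (d * b) * z ^ k * a' = w
    have hm : m = x ^ (d * b) * (a' * z ^ k) := by rw [← hk]; group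
    calc g ^ i * x ^ (d * b) * z ^ k * a' = g ^ i * (x ^ (d * b) * (a' * z ^ k)) := by rw [hzck k a']; group
      _ = g ^ i * m := by rw [hm]
      _ = w := by rw [hmdef]; group
  refine ⟨E, A, fun a ha b hb => hMab a (hAM ha) b (hAM hb), fun a ha => hMexp a (hAM ha), hgE, hxE, hzE,
    fun e he => he, fun i j k h => hunique i j k (h ▸ A.one_mem), ⟨(MulEquiv.ofBijective f ⟨hfi, hfs⟩).symm⟩⟩

theorem exception_two (M : Subgroup Q) (hMexp : ∀ m ∈ M, m ^ 2 = 1) (hMab : ∀ a ∈ M, ∀ b ∈ M, a * b = b * a)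
    (hMidx : M.index = 2) {z : Q} (hzo : orderOf z = 2) (hzM : z ∈ M) (hzc : ∀ w, w * z = z * w)
    (hcomm : ∀ a b : Q, a * b * a⁻¹ * b⁻¹ ∈ Subgroup.zpowers z) {g x : Q} (hgM : g ∉ M) (hgp : g ^ 2 = 1)
    (hxM : x ∈ M) (hgx : g * x ≠ x * g) :
    ∃ (A : Type) (_ : CommGroup A), (∀ a : A, a ^ 2 = 1) ∧ Nonempty (Q ≃* DihedralGroup 4 × A) := by
  haveI : Fact (Nat.Prime 2) := ⟨Nat.prime_two⟩
  obtain ⟨E, A, hAab, hAexp, hgE, hxE, -, hEform, -, ⟨e⟩⟩ :=
    exists_split M hMexp hMab hMidx hzo hzM hzc hcomm hgM hgp hxM hgx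
  letI : CommGroup A := { (inferInstance : Group A) with mul_comm := fun a b => Subtype.ext (hAab a a.2 b b.2) }
  obtain ⟨B, hB, ⟨eA⟩⟩ := commGroup_to_type (A := A)
  have hg2 : orderOf g = 2 := orderOf_eq_prime hgp fun h => hgM (h ▸ M.one_mem)
  have hx2 : orderOf x = 2 := orderOf_eq_prime (hMexp x hxM) fun h => hgx (by rw [h, mul_one, one_mul])
  have hgg : g⁻¹ = g := inv_eq_of_mul_eq_one_right (by rw [← pow_two, hgp])
  have hxx : x⁻¹ = x := inv_eq_of_mul_eq_one_right (by rw [← pow_two, hMexp x hxM])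
  obtain ⟨k, hk⟩ := Subgroup.mem_zpowers_iff.1 (hcomm g x)
  have hz2 : z ^ 2 = 1 := orderOf_dvd_iff_pow_eq_one.1 hzo.dvd
  have hsq : (g * x) ^ 2 = z := by
    have h1 : (g * x) ^ 2 = z ^ k := by rw [hk, hgg, hxx, pow_two]; group
    rcases Int.even_or_odd k with ⟨t, rfl⟩ | ⟨t, rfl⟩
    · exfalso
      rw [← two_mul, zpow_mul, zpow_ofNat, hz2, one_zpow] at h1
      refine hgx ?_
      rw [pow_two, ← eq_inv_iff_mul_eq_one, mul_inv_rev, hgg, hxx] at h1
      exact h1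
    · rw [h1, zpow_add, zpow_mul, zpow_ofNat, hz2, one_zpow, one_mul, zpow_one]
  have hord : orderOf (g * x) = 4 := orderOf_eq_prime_pow (p := 2) (n := 1)
    (by rw [pow_one, hsq]; intro h; rw [h, orderOf_one] at hzo; omega)
    (by rw [pow_succ, pow_one, pow_mul, hsq, hz2])
  obtain ⟨eD⟩ := Cfsg.Agent.S0206.result g x hg2 hx2 fun h => hgM (h ▸ hxM)
  rw [hord] at eD
  have hEcl : E = Subgroup.closure ({g, x} : Set Q) := by
    refine le_antisymm (fun w hw => ?_) ((Subgroup.closure_le _).2 ?_)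
    · obtain ⟨i, j, l, rfl⟩ := hEform w hw
      have hg' : g ∈ Subgroup.closure ({g, x} : Set Q) := Subgroup.subset_closure (by simp)
      have hx' : x ∈ Subgroup.closure ({g, x} : Set Q) := Subgroup.subset_closure (by simp)
      exact mul_mem (mul_mem (zpow_mem hg' i) (zpow_mem hx' j))
        (zpow_mem (hsq ▸ pow_mem (mul_mem hg' hx') 2) l)
    · rintro w (rfl | rfl) <;> assumption
  refine ⟨B, hB, fun b => ?_, ⟨e.trans (((MulEquiv.subgroupCongr hEcl).trans eD).prodCongr eA)⟩⟩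
  obtain ⟨a, rfl⟩ := eA.surjective b
  rw [← map_pow, show a ^ 2 = 1 from Subtype.ext (hAexp a a.2), map_one]

theorem exception_odd (hp2 : p ≠ 2) (hQ : IsPGroup p Q) (M : Subgroup Q) (hMexp : ∀ m ∈ M, m ^ p = 1)
    (hMab : ∀ a ∈ M, ∀ b ∈ M, a * b = b * a) (hMidx : M.index = p) {z : Q} (hzo : orderOf z = p) (hzM : z ∈ M)
    (hzc : ∀ w, w * z = z * w) (hcomm : ∀ a b : Q, a * b * a⁻¹ * b⁻¹ ∈ Subgroup.zpowers z) {g x : Q}
    (hgM : g ∉ M) (hgp : g ^ p = 1) (hxM : x ∈ M) (hgx : g * x ≠ x * g) :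
    ∃ (E : Type) (_ : Group E) (A : Type) (_ : CommGroup A), Cfsg.IsExtraspecial p E ∧ Nat.card E = p ^ 3 ∧
      Monoid.exponent E = p ∧ (∀ a : A, a ^ p = 1) ∧ Nonempty (Q ≃* E × A) := by
  obtain ⟨E, A, hAab, hAexp, hgE, hxE, hzE, hEform, hind, ⟨e⟩⟩ :=
    exists_split M hMexp hMab hMidx hzo hzM hzc hcomm hgM hgp hxM hgx
  letI : CommGroup A := { (inferInstance : Group A) with mul_comm := fun a b => Subtype.ext (hAab a a.2 b b.2) }
  obtain ⟨B, hB, ⟨eA⟩⟩ := commGroup_to_type (A := A)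
  have hpZ : Prime (p : ℤ) := Nat.prime_iff_prime_int.1 hp.out
  have hzc' : ∀ (k : ℤ) (w : Q), w * z ^ k = z ^ k * w := fun k w =>
    (show Commute w z from hzc w).zpow_right k
  have hgi : ∀ i : ℤ, g ^ i ∈ M → (p : ℤ) ∣ i := by
    intro i hi
    by_contra hnd
    obtain ⟨a, b, hab⟩ := hpZ.coprime_iff_not_dvd.2 hnd
    refine hgM ?_
    have : g = (g ^ i) ^ b := by
      rw [← zpow_mul, show i * b = 1 + (p : ℤ) * (-a) by linarith, zpow_add, zpow_one, zpow_mul, zpow_natCast,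
        hgp, one_zpow, mul_one]
    rw [this]; exact M.zpow_mem hi b
  have hmodp : ∀ (w : Q), w ^ p = 1 → ∀ i : ℤ, w ^ i = w ^ ((i % (p : ℤ)).toNat : ℤ) := by
    intro w hw i
    rw [Int.toNat_of_nonneg (Int.emod_nonneg _ (by exact_mod_cast hp.out.ne_zero))]
    exact zpow_eq_zpow_emod' i hw
  have hzp' : z ^ p = 1 := by rw [← hzo, pow_orderOf_eq_one]
  have hcard : Nat.card E = p ^ 3 := by
    let F : (Fin p × Fin p × Fin p) → E := fun t => ⟨g ^ (t.1 : ℤ) * x ^ (t.2.1 : ℤ) * z ^ (t.2.2 : ℤ),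
      mul_mem (mul_mem (zpow_mem hgE _) (zpow_mem hxE _)) (zpow_mem hzE _)⟩
    have hlt : ∀ a b : Fin p, (p : ℤ) ∣ (a : ℤ) - b → a = b := fun a b h => by
      have := Int.eq_zero_of_abs_lt_dvd h (by rw [abs_lt]; omega)
      exact Fin.ext (by omega)
    have hF : Function.Bijective F := by
      refine ⟨?_, fun ⟨w, hw⟩ => ?_⟩
      · rintro ⟨a, b, c⟩ ⟨a', b', c'⟩ h
        have h' : g ^ (a : ℤ) * x ^ (b : ℤ) * z ^ (c : ℤ) = g ^ (a' : ℤ) * x ^ (b' : ℤ) * z ^ (c' : ℤ) :=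
          congrArg Subtype.val h
        have h1 : g ^ ((a : ℤ) - a') = g ^ (-(a' : ℤ)) * (g ^ (a : ℤ) * x ^ (b : ℤ) * z ^ (c : ℤ)) *
            (z ^ (-(c : ℤ)) * x ^ (-(b : ℤ))) := by group
        rw [h'] at h1
        obtain rfl : a = a' := hlt _ _ (hgi _ (by
          rw [h1]
          refine M.mul_mem ?_ (M.mul_mem (M.zpow_mem hzM _) (M.zpow_mem hxM _))
          rw [mul_assoc (g ^ (a' : ℤ)), ← mul_assoc (g ^ (-(a' : ℤ))), ← zpow_add, neg_add_cancel, zpow_zero, one_mul]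
          exact M.mul_mem (M.zpow_mem hxM _) (M.zpow_mem hzM _)))
        rw [mul_assoc, mul_assoc] at h'
        have h2 := mul_left_cancel h'
        have h3 : g ^ (0 : ℤ) * x ^ ((b : ℤ) - b') * z ^ ((c : ℤ) - c') = 1 := by
          calc g ^ (0 : ℤ) * x ^ ((b : ℤ) - b') * z ^ ((c : ℤ) - c')
              = x ^ (-(b' : ℤ)) * (x ^ (b : ℤ) * z ^ (c : ℤ)) * z ^ (-(c' : ℤ)) := by group
            _ = 1 := by rw [h2]; group
        obtain ⟨-, h4, h5⟩ := hind _ _ _ h3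
        rw [hlt _ _ h4, hlt _ _ h5]
      · obtain ⟨i, j, k, rfl⟩ := hEform w hw
        refine ⟨⟨⟨(i % (p : ℤ)).toNat, ?_⟩, ⟨(j % (p : ℤ)).toNat, ?_⟩, ⟨(k % (p : ℤ)).toNat, ?_⟩⟩, Subtype.ext ?_⟩
        iterate 3
          have := Int.emod_lt_of_pos i (show (0 : ℤ) < p by exact_mod_cast hp.out.pos)
          have := Int.emod_lt_of_pos j (show (0 : ℤ) < p by exact_mod_cast hp.out.pos)
          have := Int.emod_lt_of_pos k (show (0 : ℤ) < p by exact_mod_cast hp.out.pos)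
          have := hp.out.pos
          omega
        show g ^ (((i % (p : ℤ)).toNat : ℕ) : ℤ) * x ^ (((j % (p : ℤ)).toNat : ℕ) : ℤ) * z ^ (((k % (p : ℤ)).toNat : ℕ) : ℤ) = g ^ i * x ^ j * z ^ k
        rw [hmodp g hgp i, hmodp x (hMexp x hxM) j, hmodp z hzp' k]
    rw [← Nat.card_eq_of_bijective F hF]
    simp [pow_succ, mul_assoc]
  -- the properties of `E`
  have hEexp : ∀ w : E, w ^ p = 1 := by
    rintro ⟨w, hw⟩
    refine Subtype.ext ?_
    obtain ⟨i, j, k, rfl⟩ := hEform w hw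
    show (g ^ i * x ^ j * z ^ k) ^ p = 1
    obtain ⟨d, hd⟩ := Subgroup.mem_zpowers_iff.1 (hcomm (x ^ j * z ^ k) (g ^ i))
    have hd' : ⁅x ^ j * z ^ k, g ^ i⁆ = z ^ d := by rw [commutatorElement_def, hd]
    obtain ⟨q, hq⟩ := CfsgLib.PGroup.dvd_choose_two (p := p) hp2
    rw [mul_assoc, CfsgLib.PGroup.mul_pow_central (by
        rw [hd']; exact Subgroup.mem_center_iff.2 fun u => hzc' d u) p, hd', hq, pow_mul,
      ← zpow_natCast (z ^ d), ← zpow_mul, mul_comm d, zpow_mul, zpow_natCast, hzp', one_zpow, one_pow, mul_one,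
      hMexp _ (M.mul_mem (M.zpow_mem hxM j) (M.zpow_mem hzM k)), mul_one, ← zpow_natCast, ← zpow_mul, mul_comm i,
      zpow_mul, zpow_natCast, hgp, one_zpow]
  set zE : E := ⟨z, hzE⟩ with hzEdef
  have hzEo : orderOf zE = p := by rw [← Subgroup.orderOf_coe]; exact hzo
  have hcen : Subgroup.center E = Subgroup.zpowers zE := by
    refine le_antisymm (fun w hw => ?_) (Subgroup.zpowers_le.2 (Subgroup.mem_center_iff.2 fun u => Subtype.ext (hzc u)))
    rw [Subgroup.mem_center_iff] at hw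
    obtain ⟨i, j, k, hwf⟩ := hEform w w.2
    have hg : g * (w : Q) = w * g := congrArg Subtype.val (hw ⟨g, hgE⟩)
    have hx : x * (w : Q) = w * x := congrArg Subtype.val (hw ⟨x, hxE⟩)
    have hcanc : ∀ (u a : Q) (i : ℤ), u ^ p = 1 → ¬ (p : ℤ) ∣ i → Commute a (u ^ i) → Commute a u := by
      intro u a i hu hi h
      obtain ⟨s, t, hst⟩ := hpZ.coprime_iff_not_dvd.2 hi
      have : u = (u ^ i) ^ t := by
        rw [← zpow_mul, show i * t = 1 + (p : ℤ) * (-s) by linarith, zpow_add, zpow_one, zpow_mul, zpow_natCast,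
          hu, one_zpow, mul_one]
      rw [this]; exact h.zpow_right t
    have hi : (p : ℤ) ∣ i := by
      by_contra hi
      refine hgx (hcanc g x i hgp hi ?_).eq.symm
      have h1 : Commute x (g ^ i * x ^ j * z ^ k) := hwf ▸ hx
      have h2 : g ^ i = (g ^ i * x ^ j * z ^ k) * (z ^ (-k) * x ^ (-j)) := by group
      rw [h2]
      exact h1.mul_right ((show Commute x (z ^ (-k)) from hzc' _ x).mul_right
        ((Commute.refl x).zpow_right (-j)))
    obtain ⟨a, rfl⟩ := hi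
    rw [zpow_mul, zpow_natCast, hgp, one_zpow, one_mul] at hwf
    have hj : (p : ℤ) ∣ j := by
      by_contra hj
      refine hgx (hcanc x g j (hMexp x hxM) hj ?_).eq
      have h1 : Commute g (x ^ j * z ^ k) := hwf ▸ hg
      have h2 : x ^ j = (x ^ j * z ^ k) * z ^ (-k) := by group
      rw [h2]
      exact h1.mul_right (hzc' (-k) g)
    obtain ⟨b, rfl⟩ := hj
    rw [zpow_mul, zpow_natCast, hMexp x hxM, one_zpow, one_mul] at hwf
    exact Subgroup.mem_zpowers_iff.2 ⟨k, Subtype.ext (by rw [SubgroupClass.coe_zpow]; exact hwf.symm)⟩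
  have hcc : ∀ a b : E, ⁅a, b⁆ ∈ Subgroup.zpowers zE := fun a b => by
    obtain ⟨k, hk⟩ := Subgroup.mem_zpowers_iff.1 (hcomm a b)
    exact Subgroup.mem_zpowers_iff.2 ⟨k, Subtype.ext (by rw [SubgroupClass.coe_zpow]; exact hk)⟩
  have hEp : IsPGroup p E := hQ.to_subgroup E
  have hder : commutator E = Subgroup.zpowers zE := by
    refine le_antisymm ?_ (Subgroup.zpowers_le.2 ?_)
    · rw [commutator_def, Subgroup.commutator_le]
      exact fun a _ b _ => hcc a b
    · obtain ⟨k, hk⟩ := Subgroup.mem_zpowers_iff.1 (hcc ⟨g, hgE⟩ ⟨x, hxE⟩)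
      have hk0 : ¬ (p : ℤ) ∣ k := by
        rintro ⟨b, rfl⟩
        refine hgx ?_
        have h : g * x * g⁻¹ * x⁻¹ = 1 := by
          have := congrArg Subtype.val hk
          rw [zpow_mul, zpow_natCast, ← hzEo, pow_orderOf_eq_one, one_zpow] at this
          exact this.symm
        rw [mul_inv_eq_one, mul_inv_eq_iff_eq_mul] at h
        exact h
      obtain ⟨a, b, hab⟩ := hpZ.coprime_iff_not_dvd.2 hk0
      have : zE = (zE ^ k) ^ b := by
        rw [← zpow_mul, show k * b = 1 + (p : ℤ) * (-a) by linarith, zpow_add, zpow_one, zpow_mul, zpow_natCast,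
          ← hzEo, pow_orderOf_eq_one, one_zpow, mul_one]
      rw [this, hk, commutator_def]
      exact Subgroup.zpow_mem _ (Subgroup.commutator_mem_commutator (Subgroup.mem_top _) (Subgroup.mem_top _)) b
  obtain ⟨E', hE', ⟨ee⟩⟩ := group_to_type (A := E)
  haveI : Finite E' := Finite.of_equiv E ee.toEquiv
  refine ⟨E', hE', B, hB, ?_, ?_, ?_, fun b => ?_, ⟨e.trans (ee.prodCongr eA)⟩⟩
  · have hp' : IsPGroup p E' := hEp.of_equiv ee
    have hcm : (Subgroup.center E).map ee.toMonoidHom = Subgroup.center E' := by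
      ext w
      simp only [Subgroup.mem_map, Subgroup.mem_center_iff]
      refine ⟨?_, fun h => ⟨ee.symm w, fun u => ee.injective (by simpa using h (ee u)), by simp⟩⟩
      rintro ⟨v, hv, rfl⟩ u
      obtain ⟨u', rfl⟩ := ee.surjective u
      exact (map_mul ee u' v).symm.trans ((congrArg ee (hv u')).trans (map_mul ee v u'))
    have hdm : (commutator E).map ee.toMonoidHom = commutator E' := by
      rw [commutator_def, Subgroup.map_commutator, Subgroup.map_top_of_surjective _ ee.surjective, commutator_def]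
    have hd : commutator E' = Subgroup.center E' := by rw [← hdm, ← hcm, hder, hcen]
    refine ⟨⟨hp', le_antisymm ?_ (hd ▸ CfsgLib.PGroup.commutator_le_frattini hp'), hd⟩, ?_⟩
    · refine CfsgLib.PGroup.frattini_le_of_elementary (p := p) (fun a b => ?_) (fun a => ?_)
      · rw [← hd, commutator_def]
        exact Subgroup.commutator_mem_commutator (Subgroup.mem_top _) (Subgroup.mem_top _)
      · obtain ⟨a', rfl⟩ := ee.surjective a
        rw [← map_pow, hEexp, map_one]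
        exact one_mem _
    · rw [← hcm, Subgroup.card_map_of_injective ee.injective, hcen, Nat.card_zpowers, hzEo]
  · rw [← Nat.card_congr ee.toEquiv, hcard]
  · haveI : Nontrivial E' := Finite.one_lt_card_iff_nontrivial.1 (by
      rw [← Nat.card_congr ee.toEquiv, hcard]; exact Nat.one_lt_pow (by omega) hp.out.one_lt)
    refine (Monoid.exponent_eq_prime_iff hp.out).2 fun a ha => ?_
    obtain ⟨a', rfl⟩ := ee.surjective a
    exact orderOf_eq_prime (by rw [← map_pow, hEexp, map_one]) ha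
  · obtain ⟨a, rfl⟩ := eA.surjective b
    rw [← map_pow, show a ^ p = 1 from Subtype.ext (hAexp a a.2), map_one]

end CfsgLib.GenExtra
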