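import Cfsg.Agent.GenExtra.Transvection
import Cfsg.Agent.GenExtra.Split

/-!
Generalized extraspecial strongly closed subgroups are normal apart from the two exceptions.
-/

set_option autoImplicit false
set_option linter.style.haveILetI false

open Cfsg
open scoped commutatorElement

namespace CfsgLib.GenExtra

open Cfsg.FusionSystem CfsgLib.Fusion CfsgLib.MetaResistant

theorem isNormal_of_genExtraspecial {Ω : Type*} [Group Ω] {S : Subgroup Ω} [Finite S] {p : ℕ} [hp : Fact p.Prime]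
    (hS : IsPGroup p S) {F : Cfsg.FusionSystem S} (hF : F.IsSaturated p) {P : Subgroup Ω} (hP : F.StronglyClosed P)
    (hge : frattini P = commutator P ∧ Nat.card (commutator P) = p)
    (h2 : p = 2 → ¬ ∃ (A : Type) (_ : CommGroup A), (∀ a : A, a ^ 2 = 1) ∧ Nonempty (P ≃* DihedralGroup 4 × A))
    (hodd : p ≠ 2 → ¬ ∃ (E : Type) (_ : Group E) (A : Type) (_ : CommGroup A), Cfsg.IsExtraspecial p E ∧
      Nat.card E = p ^ 3 ∧ Monoid.exponent E = p ∧ (∀ a : A, a ^ p = 1) ∧ Nonempty (P ≃* E × A)) :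
    F.IsNormal P := by
  classical
  obtain ⟨hge1, hge2⟩ := hge
  have hPS := hP.1
  haveI := finite_of_le hPS
  have hPp : IsPGroup p P := hS.to_le hPS
  -- the centre line
  haveI : Nontrivial (commutator P) := Finite.one_lt_card_iff_nontrivial.1 (hge2 ▸ hp.out.one_lt)
  obtain ⟨⟨⟨z, hzP⟩, hzD⟩, hzne⟩ := exists_ne (1 : ↥(commutator P))
  have hD : commutator P = Subgroup.zpowers (⟨z, hzP⟩ : P) := by
    haveI : Fact (Nat.card (commutator P)).Prime := ⟨hge2 ▸ hp.out⟩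
    refine le_antisymm (fun w hw => ?_) (Subgroup.zpowers_le.2 hzD)
    obtain ⟨k, hk⟩ := Subgroup.mem_zpowers_iff.1 (mem_zpowers_of_prime_card (p := p) hge2 (g' := (⟨w, hw⟩ : ↥(commutator P))) hzne)
    exact Subgroup.mem_zpowers_iff.2 ⟨k, by simpa using congrArg Subtype.val hk⟩
  have hzo : orderOf z = p := by
    have h1 : Nat.card (Subgroup.zpowers (⟨z, hzP⟩ : P)) = p := hD ▸ hge2
    rwa [Nat.card_zpowers, ← Subgroup.orderOf_coe] at h1
  set Z := Subgroup.zpowers z with hZdef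
  have hZP : Z ≤ P := Subgroup.zpowers_le.2 hzP
  have hinZ : ∀ w : P, w ∈ commutator P → (w : Ω) ∈ Z := fun w hw => by
    rw [hD] at hw
    obtain ⟨k, rfl⟩ := Subgroup.mem_zpowers_iff.1 hw
    rw [SubgroupClass.coe_zpow]; exact Subgroup.zpow_mem_zpowers z k
  have hcomm : ∀ a ∈ P, ∀ b ∈ P, a * b * a⁻¹ * b⁻¹ ∈ Z := fun a ha b hb =>
    hinZ ⁅(⟨a, ha⟩ : P), (⟨b, hb⟩ : P)⁆ (by
      rw [commutator_def]; exact Subgroup.commutator_mem_commutator (Subgroup.mem_top _) (Subgroup.mem_top _))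
  have hpow : ∀ a ∈ P, a ^ p ∈ Z := fun a ha =>
    hinZ (⟨a, ha⟩ ^ p) (hge1 ▸ CfsgLib.PGroup.pow_mem_frattini hPp _)
  have hzS : z ∈ S := hPS hzP
  have hPn := le_normalizer_of_stronglyClosed hP
  have hzc : ∀ s ∈ S, s * z * s⁻¹ = z := fun s hs => central_of_normal hS hzS hzo (fun s hs => by
    have e : ⁅P, P⁆ = (commutator P).map P.subtype := by
      rw [commutator_def, Subgroup.map_commutator, ← MonoidHom.range_eq_map, Subgroup.range_subtype]
    have h1 : z ∈ ⁅P, P⁆ := e ▸ ⟨⟨z, hzP⟩, hzD, rfl⟩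
    have h2 := Subgroup.mem_map_of_mem (MulAut.conj s).toMonoidHom h1
    rw [Subgroup.map_commutator] at h2
    have h3 : P.map (MulAut.conj s).toMonoidHom ≤ P := by
      rintro _ ⟨y, hy, rfl⟩
      exact conj_mem_of_normalizer (hPn hs) hy
    obtain ⟨w, hw, hwe⟩ := e ▸ Subgroup.commutator_mono h3 h3 h2
    rw [show s * z * s⁻¹ = w from hwe.symm]
    exact hinZ w hw) hs
  have hzck : ∀ (k : ℤ), ∀ s ∈ S, s * z ^ k * s⁻¹ = z ^ k := fun k s hs => by rw [← conj_zpow, hzc s hs]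
  suffices hZsc : F.StronglyClosed Z by
    refine isNormal_of_series hS hF hP (fun i => if i = 0 then ⊥ else if i = 1 then Z else P) ?_ rfl
      (fun i => ?_) (fun i => ?_) (fun i => ?_) 2 rfl
    · intro a b h
      show (if a = 0 then ⊥ else if a = 1 then Z else P) ≤ if b = 0 then ⊥ else if b = 1 then Z else P
      split_ifs <;> first | exact bot_le | exact le_rfl | exact hZP | omega
    · show (if i = 0 then ⊥ else if i = 1 then Z else P) ≤ P
      split_ifs <;> first | exact bot_le | exact le_rfl | exact hZP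
    · show ⁅(if i + 1 = 0 then ⊥ else if i + 1 = 1 then Z else P), P⁆ ≤ if i = 0 then ⊥ else if i = 1 then Z else P
      rw [if_neg (Nat.succ_ne_zero i), Subgroup.commutator_le]
      intro a ha b hb
      rcases eq_or_ne i 0 with rfl | hi
      · rw [if_pos rfl] at ha
        obtain ⟨k, rfl⟩ := Subgroup.mem_zpowers_iff.1 ha
        rw [if_pos rfl, Subgroup.mem_bot, commutatorElement_eq_one_iff_mul_comm]
        exact (mul_inv_eq_iff_eq_mul.1 (hzck k b (hPS hb))).symm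
      · rw [if_neg (by omega)] at ha
        rw [if_neg hi]
        split_ifs with h1
        · exact hcomm a ha b hb
        · exact P.mul_mem (P.mul_mem (P.mul_mem ha hb) (P.inv_mem ha)) (P.inv_mem hb)
    · show F.WeaklyClosed (if i = 0 then ⊥ else if i = 1 then Z else P)
      split_ifs
      · exact weaklyClosed_bot
      · exact weaklyClosed_of_stronglyClosed hZsc
      · exact weaklyClosed_of_stronglyClosed hP
  refine ⟨hZP.trans hPS, fun R hR φ hφ ⟨y, hy⟩ => ?_⟩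
  by_contra hnot
  -- `R = Z`
  have hRZ : R = Z := by
    haveI : Finite Z := finite_of_le (hZP.trans hPS)
    rcases (Nat.dvd_prime hp.out).1 ((Subgroup.card_dvd_of_le hR).trans (Nat.card_zpowers z ▸ hzo.dvd)) with h | h
    · exfalso
      have : (⟨y, hy⟩ : R) = 1 := Subtype.ext (Subgroup.mem_bot.1 (Subgroup.eq_bot_of_card_eq R h ▸ hy))
      rw [this, map_one] at hnot
      exact hnot Z.one_mem
    · exact Subgroup.eq_of_le_of_card_ge hR (le_of_eq (by rw [h, Nat.card_zpowers, hzo]))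
  subst hRZ
  set x := φ ⟨z, Subgroup.mem_zpowers z⟩ with hxdef
  have hxZ : x ∉ Z := by
    intro h
    refine hnot ?_
    obtain ⟨k, hk⟩ := Subgroup.mem_zpowers_iff.1 hy
    have : (⟨y, hy⟩ : Z) = (⟨z, Subgroup.mem_zpowers z⟩ : Z) ^ k :=
      Subtype.ext (by rw [SubgroupClass.coe_zpow]; exact hk.symm)
    rw [this, map_zpow]
    exact Z.zpow_mem h k
  have hxP : x ∈ P := hP.2 Z hZP φ hφ _
  have hxp : x ^ p = 1 := by
    have h1 : (⟨z, Subgroup.mem_zpowers z⟩ : Z) ^ p = 1 := Subtype.ext (hzo ▸ pow_orderOf_eq_one z)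
    rw [hxdef, ← map_pow, h1, map_one]
  have hxo : orderOf x = p := orderOf_eq_prime hxp fun e => hxZ (e ▸ Z.one_mem)
  -- the inverse map extends to the centraliser of `x`
  obtain ⟨ψ, hψ, hψr, hψ1, -⟩ := exists_inv hφ (rfl : φ.range = φ.range)
  have hψx : ψ ⟨x, _, rfl⟩ = z := hψ1 _ _
  have hZn : S ≤ Subgroup.normalizer (Z : Set Ω) := fun s hs => Subgroup.mem_normalizer_iff.2 fun w => by
    constructor
    · rintro ⟨k, rfl⟩; exact ⟨k, (hzck k s hs).symm⟩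
    · rintro ⟨k, hk⟩
      exact ⟨k, mul_left_cancel (mul_right_cancel ((hzck k s hs).trans hk))⟩
  have hrec := receptive_of_fullyNormalized hS hF (isFullyNormalized_of_le_normalizer (M := F) (hZP.trans hPS) hZn)
  obtain ⟨χ, hχ, hag⟩ := hrec.2 _ ψ hψ hψr
  set C : Subgroup Ω := P ⊓ Subgroup.centralizer {x} with hCdef
  have hCe : C ≤ extender S φ.range ψ := fun c hc => centralizerIn_le_extender ⟨hPS hc.1,
    Subgroup.mem_centralizer_iff.2 (by
      rintro _ ⟨⟨w, hw⟩, rfl⟩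
      obtain ⟨k, rfl⟩ := Subgroup.mem_zpowers_iff.1 hw
      have : φ ⟨z ^ k, hw⟩ = x ^ k := by
        rw [hxdef, ← map_zpow]; exact congrArg φ (Subtype.ext (by rw [SubgroupClass.coe_zpow]))
      show φ ⟨z ^ k, hw⟩ * c = c * φ ⟨z ^ k, hw⟩
      rw [this]
      exact ((show Commute c x from Subgroup.mem_centralizer_singleton_iff.1 hc.2).zpow_right k).symm)⟩
  have hres := restrict hχ hCe
  set β := χ.comp (Subgroup.inclusion hCe)
  have hxC : x ∈ C := ⟨hxP, Subgroup.mem_centralizer_singleton_iff.2 rfl⟩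
  have hβx : β ⟨x, hxC⟩ = z := (hag x ⟨_, rfl⟩ (hCe hxC)).trans hψx
  have hβP : ∀ c, β c ∈ P := fun c => hP.2 C inf_le_left _ hres c
  have kill : ∀ w : C, (w : Ω) ∈ Z → β w ∈ Z → w = 1 := by
    intro w hw hw'
    obtain ⟨k, hk⟩ := Subgroup.mem_zpowers_iff.1 hw'
    have h1 : w = (⟨x, hxC⟩ : C) ^ k := F.injective_of_mem hres (by rw [map_zpow, hβx]; exact hk.symm)
    by_contra hne
    refine hxZ ?_
    have hne' : ¬ (p : ℤ) ∣ k := by
      rintro ⟨d, rfl⟩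
      refine hne ?_
      rw [h1]
      apply Subtype.ext
      rw [SubgroupClass.coe_zpow, zpow_mul, zpow_natCast, hxp, one_zpow, Subgroup.coe_one]
    obtain ⟨a, b, hab⟩ := (Nat.prime_iff_prime_int.1 hp.out).coprime_iff_not_dvd.2 hne'
    have h2 : x = ((w : C) : Ω) ^ b := by
      rw [h1, SubgroupClass.coe_zpow, ← zpow_mul, show k * b = 1 + (p : ℤ) * (-a) by linarith, zpow_add, zpow_one,
        zpow_mul, zpow_natCast, hxp, one_zpow, mul_one]
    rw [h2]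
    exact Z.zpow_mem hw b
  have hCab : ∀ a ∈ C, ∀ b ∈ C, a * b = b * a := by
    intro a ha b hb
    have h := kill (⟨a, ha⟩ * ⟨b, hb⟩ * (⟨a, ha⟩ : C)⁻¹ * (⟨b, hb⟩ : C)⁻¹) (hcomm a ha.1 b hb.1) (by
      rw [map_mul, map_mul, map_mul, map_inv, map_inv]
      exact hcomm _ (hβP _) _ (hβP _))
    have h' : a * b * a⁻¹ * b⁻¹ = 1 := congrArg Subtype.val h
    rw [mul_inv_eq_one, mul_inv_eq_iff_eq_mul] at h'
    exact h'
  have hCexp : ∀ a ∈ C, a ^ p = 1 := by
    intro a ha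
    exact congrArg Subtype.val (kill (⟨a, ha⟩ ^ p) (hpow a ha.1) (by rw [map_pow]; exact hpow _ (hβP _)))
  -- some element of `P` moves `x`
  obtain ⟨g₀, hg₀P, hg₀⟩ : ∃ g₀ ∈ P, g₀ * x ≠ x * g₀ := by
    by_contra h
    push Not at h
    have hPC : P ≤ C := fun w hw => ⟨hw, Subgroup.mem_centralizer_singleton_iff.2 (h w hw)⟩
    have hz1 : ∀ w ∈ commutator P, w = 1 := by
      intro w hw
      have hle : commutator P ≤ ⊥ := by
        rw [commutator_def, Subgroup.commutator_le]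
        intro a _ b _
        rw [Subgroup.mem_bot, commutatorElement_eq_one_iff_mul_comm]
        exact Subtype.ext (hCab a (hPC a.2) b (hPC b.2))
      exact Subgroup.mem_bot.1 (hle hw)
    exact hzne (Subtype.ext (hz1 _ hzD))
  -- the hom `a ↦ [a, x]`
  have hcen : ∀ a b : Ω, a ∈ P → b ∈ Z → a * b = b * a := fun a b ha hb => by
    obtain ⟨k, rfl⟩ := Subgroup.mem_zpowers_iff.1 hb
    exact mul_inv_eq_iff_eq_mul.1 (hzck k a (hPS ha))
  let θ : P →* Z :=
    { toFun := fun a => ⟨(a : Ω) * x * (a : Ω)⁻¹ * x⁻¹, hcomm a a.2 x hxP⟩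
      map_one' := Subtype.ext (by simp)
      map_mul' := fun a b => Subtype.ext (by
        show (a : Ω) * b * x * ((a : Ω) * b)⁻¹ * x⁻¹ = ((a : Ω) * x * (a : Ω)⁻¹ * x⁻¹) * ((b : Ω) * x * (b : Ω)⁻¹ * x⁻¹)
        calc (a : Ω) * b * x * ((a : Ω) * b)⁻¹ * x⁻¹ = (a : Ω) * ((b : Ω) * x * (b : Ω)⁻¹ * x⁻¹) * (x * (a : Ω)⁻¹ * x⁻¹) := by group
          _ = ((b : Ω) * x * (b : Ω)⁻¹ * x⁻¹) * (a : Ω) * (x * (a : Ω)⁻¹ * x⁻¹) := by rw [hcen a _ a.2 (hcomm b b.2 x hxP)]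
          _ = ((b : Ω) * x * (b : Ω)⁻¹ * x⁻¹) * ((a : Ω) * x * (a : Ω)⁻¹ * x⁻¹) := by group
          _ = _ := (hcen _ _ (hZP (hcomm b b.2 x hxP)) (hcomm a a.2 x hxP))) }
  have hθker : θ.ker = C.subgroupOf P := by
    ext a
    rw [MonoidHom.mem_ker, Subgroup.mem_subgroupOf, Subtype.ext_iff]
    show (a : Ω) * x * (a : Ω)⁻¹ * x⁻¹ = 1 ↔ _
    rw [mul_inv_eq_one, mul_inv_eq_iff_eq_mul]
    exact ⟨fun h => ⟨a.2, Subgroup.mem_centralizer_singleton_iff.2 h⟩,
      fun h => Subgroup.mem_centralizer_singleton_iff.1 h.2⟩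
  haveI : Finite Z := finite_of_le (hZP.trans hPS)
  have hidx : (C.subgroupOf P).index = p := by
    rw [← hθker, Subgroup.index_ker]
    have hd := Subgroup.card_subgroup_dvd_card θ.range
    rw [Nat.card_zpowers, hzo] at hd
    rcases (Nat.dvd_prime hp.out).1 hd with h | h
    · exfalso
      refine hg₀ ?_
      have h1 : θ ⟨g₀, hg₀P⟩ ∈ θ.range := ⟨_, rfl⟩
      rw [Subgroup.eq_bot_of_card_eq _ h, Subgroup.mem_bot, Subtype.ext_iff] at h1
      change g₀ * x * g₀⁻¹ * x⁻¹ = 1 at h1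
      rw [mul_inv_eq_one, mul_inv_eq_iff_eq_mul] at h1
      exact h1
    · exact h
  have hzC : z ∈ C := ⟨hzP, Subgroup.mem_centralizer_singleton_iff.2 (hcen x z hxP (Subgroup.mem_zpowers z)).symm⟩
  have hgx' : ∀ g ∈ P, g ∉ C → g * x ≠ x * g := fun g hg hgC h =>
    hgC ⟨hg, Subgroup.mem_centralizer_singleton_iff.2 h⟩
  by_cases hex : ∃ g ∈ P, g ∉ C ∧ g ^ p = 1
  · obtain ⟨g, hg, hgC, hgp⟩ := hex
    have hM1 : ∀ m ∈ C.subgroupOf P, m ^ p = 1 := fun m hm => Subtype.ext (hCexp _ hm)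
    have hM2 : ∀ a ∈ C.subgroupOf P, ∀ b ∈ C.subgroupOf P, a * b = b * a := fun a ha b hb =>
      Subtype.ext (hCab _ ha _ hb)
    have hzP1 : orderOf (⟨z, hzP⟩ : P) = p := by rw [← Subgroup.orderOf_coe]; exact hzo
    have hzP2 : ∀ w : P, w * ⟨z, hzP⟩ = ⟨z, hzP⟩ * w := fun w =>
      Subtype.ext (hcen w z w.2 (Subgroup.mem_zpowers z))
    have hcommP : ∀ a b : P, a * b * a⁻¹ * b⁻¹ ∈ Subgroup.zpowers (⟨z, hzP⟩ : P) := fun a b => by
      obtain ⟨k, hk⟩ := Subgroup.mem_zpowers_iff.1 (hcomm a a.2 b b.2)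
      exact Subgroup.mem_zpowers_iff.2 ⟨k, Subtype.ext (by rw [SubgroupClass.coe_zpow]; exact hk)⟩
    have hgxP : (⟨g, hg⟩ : P) * ⟨x, hxP⟩ ≠ ⟨x, hxP⟩ * ⟨g, hg⟩ := fun h => hgx' g hg hgC (congrArg Subtype.val h)
    rcases eq_or_ne p 2 with rfl | hp2
    · exact h2 rfl (exception_two (C.subgroupOf P) hM1 hM2 hidx hzP1 hzC hzP2 hcommP (g := ⟨g, hg⟩) (x := ⟨x, hxP⟩)
        hgC (Subtype.ext hgp) hxC hgxP)
    · exact hodd hp2 (exception_odd hp2 hPp (C.subgroupOf P) hM1 hM2 hidx hzP1 hzC hzP2 hcommP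
        (g := ⟨g, hg⟩) (x := ⟨x, hxP⟩) hgC (Subtype.ext hgp) hxC hgxP)
  push Not at hex
  obtain ⟨g, hg, hgC⟩ : ∃ g ∈ P, g ∉ C := ⟨g₀, hg₀P, fun h => hg₀ (Subgroup.mem_centralizer_singleton_iff.1 h.2)⟩
  have hp2 : p ≠ 2 := by
    rintro rfl
    -- replace `g` by `g x`
    have hgxC : g * x ∉ C := fun h => hgC (by simpa using C.mul_mem h (C.inv_mem hxC))
    refine hex (g * x) (P.mul_mem hg hxP) hgxC ?_
    obtain ⟨k, hk⟩ := Subgroup.mem_zpowers_iff.1 (hpow g hg)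
    obtain ⟨l, hl⟩ := Subgroup.mem_zpowers_iff.1 (hcomm g hg x hxP)
    have hz2 : z ^ (2 : ℤ) = 1 := by rw [zpow_ofNat, ← hzo, pow_orderOf_eq_one]
    have hodd' : ∀ m : ℤ, z ^ m ≠ 1 → z ^ m = z := by
      intro m hm
      rcases Int.even_or_odd m with ⟨t, rfl⟩ | ⟨t, rfl⟩
      · exact absurd (by rw [← two_mul, zpow_mul, hz2, one_zpow]) hm
      · rw [zpow_add, zpow_mul, hz2, one_zpow, one_mul, zpow_one]
    have hk1 : z ^ k = z := hodd' k (by rw [hk]; exact hex g hg hgC)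
    have hl1 : z ^ l = z := hodd' l (by
      rw [hl]; intro h; rw [mul_inv_eq_one, mul_inv_eq_iff_eq_mul] at h; exact hgx' g hg hgC h)
    have hxx : x⁻¹ = x := inv_eq_of_mul_eq_one_right (by rw [← pow_two, hxp])
    have h1 : (g * x) ^ 2 = g * x * g⁻¹ * x⁻¹ * (x * g ^ 2 * x) := by
      rw [pow_two, pow_two]; group
    rw [h1, ← hl, ← hk, hl1, hk1, hcen x z hxP (Subgroup.mem_zpowers z), mul_assoc z x x, ← pow_two, hxp,
      mul_one, ← pow_two, ← hzo, pow_orderOf_eq_one]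
  have hMmem : ∀ w ∈ P, w ^ p = 1 → w ∈ C := fun w hw hwp => by
    by_contra hn; exact hex w hw hn hwp
  have hMsc : F.StronglyClosed C := ⟨inf_le_left.trans hPS, fun R hR φ' hφ' w =>
    hMmem _ (hP.2 R (hR.trans inf_le_left) φ' hφ' w) (by
      rw [← map_pow, show w ^ p = 1 from Subtype.ext (hCexp w (hR w.2)), map_one])⟩
  have hM : F.IsNormal C := isNormal_of_abelian hS hF hMsc ⟨⟨fun a b => Subtype.ext (hCab a a.2 b b.2)⟩⟩
  obtain ⟨α, hα, hαe⟩ := exists_aut_of_isNormal hM (Subgroup.zpowers_le.2 hzC) hφ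
  have hfix := aut_fix_centre hS hF hp2 hP hM inf_le_left hCexp hCab hMmem hidx hzo hzc hcomm hg hgC hzC
    (hpow g hg) hxC (hgx' g hg hgC) hα
  exact hxZ (by rw [hxdef, hαe]; exact hfix)

end CfsgLib.GenExtra
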