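import Cfsg.Agent.MetaResistant.Line
import Cfsg.Agent.PGroup.Basic
import Cfsg.Agent.Subnormal.BaerSuzuki
import Cfsg.Agent.PReduced.Basic

/-!
A strongly closed `P` with `|P'| = p` and an elementary abelian maximal subgroup `M = Ω₁(P)`, `p` odd:
the automizer of `M` fixes the derived subgroup.
-/

set_option autoImplicit false
set_option linter.style.haveILetI false

open Cfsg
open scoped commutatorElement

namespace CfsgLib.GenExtra

open Cfsg.FusionSystem CfsgLib.Fusion CfsgLib.MetaResistant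

/-- Automorphisms stabilising a chain `⟨z⟩ ≤ ⟨z, y⟩` of an abelian group of exponent `p` form a `p`-group. -/
lemma pow_sq_eq_one {M : Type*} [CommGroup M] {p : ℕ} (hexp : ∀ m : M, m ^ p = 1) {z y : M} {γ : MulAut M}
    (h1 : γ z = z) (h2 : ∃ k : ℤ, γ y = y * z ^ k) (h3 : ∀ m, ∃ i j : ℤ, γ m = m * (z ^ i * y ^ j)) :
    γ ^ (p * p) = 1 := by
  obtain ⟨k, hk⟩ := h2
  have hzy : ∀ i j : ℤ, (γ ^ p) (z ^ i * y ^ j) = z ^ i * y ^ j := by
    intro i j
    have h := shear_pow h1 hk p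
    rw [map_mul, map_zpow, map_zpow, h.1, h.2, mul_comm k, zpow_mul, zpow_natCast, hexp, one_zpow, mul_one]
  have hstep : ∀ (n : ℕ) (m : M), ∃ i j : ℤ, (γ ^ n) m = m * (z ^ i * y ^ j) := by
    intro n
    induction n with
    | zero => exact fun m => ⟨0, 0, by simp⟩
    | succ n ih =>
      intro m
      obtain ⟨i, j, hij⟩ := ih m
      obtain ⟨i', j', hij'⟩ := h3 m
      refine ⟨i + i' + j * k, j + j', ?_⟩
      rw [pow_succ', MulAut.mul_apply, hij, map_mul, hij', map_mul, map_zpow, map_zpow, h1, hk, mul_zpow,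
        ← zpow_mul, zpow_add, zpow_add, zpow_add, mul_comm k j]
      simp only [mul_assoc, mul_comm, mul_left_comm]
  refine MulEquiv.ext fun m => ?_
  obtain ⟨i, j, hij⟩ := hstep p m
  have : ∀ r : ℕ, ((γ ^ p) ^ r) m = m * (z ^ i * y ^ j) ^ r := by
    intro r
    induction r with
    | zero => simp
    | succ r ih =>
      rw [pow_succ' (γ ^ p), MulAut.mul_apply, ih, map_mul, map_pow, hzy, hij, pow_succ', mul_assoc]
  rw [pow_mul, this p, hexp, mul_one]
  rfl

variable {Ω : Type*} [Group Ω] {S : Subgroup Ω} [Finite S] {F : Cfsg.FusionSystem S} {P M : Subgroup Ω}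
variable {p : ℕ} [hp : Fact p.Prime]

set_option maxHeartbeats 1600000 in
theorem aut_fix_centre (hS : IsPGroup p S) (hF : F.IsSaturated p) (hp2 : p ≠ 2) (hP : F.StronglyClosed P)
    (hM : F.IsNormal M) (hMP : M ≤ P) (hMexp : ∀ x ∈ M, x ^ p = 1)
    (hMab : ∀ x ∈ M, ∀ y ∈ M, x * y = y * x) (hMmem : ∀ x ∈ P, x ^ p = 1 → x ∈ M)
    (hMidx : M.relIndex P = p) {z : Ω} (hzo : orderOf z = p) (hzS : ∀ s ∈ S, s * z * s⁻¹ = z)
    (hcomm : ∀ a ∈ P, ∀ b ∈ P, a * b * a⁻¹ * b⁻¹ ∈ Subgroup.zpowers z)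
    {g : Ω} (hgP : g ∈ P) (hgM : g ∉ M) (hzM : z ∈ M) (hgz : g ^ p ∈ Subgroup.zpowers z)
    {u : Ω} (hu : u ∈ M) (hgu : g * u ≠ u * g)
    {α : MulAut M} (hα : α ∈ F.autGroup M) :
    ((α ⟨z, hzM⟩ : M) : Ω) ∈ Subgroup.zpowers z := by
  classical
  by_contra hnot
  have hPS := hP.1
  have hMS : M ≤ S := hM.1
  haveI := finite_of_le hPS
  haveI := finite_of_le hMS
  haveI := finite_mulAut (S := S) hMS
  letI : CommGroup M := { (inferInstance : Group M) with mul_comm := fun a b => Subtype.ext (hMab a a.2 b b.2) }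
  have hexp : ∀ m : M, m ^ p = 1 := fun m => Subtype.ext (hMexp m m.2)
  have hMn := le_normalizer_of_isNormal hM
  have hfn := isFullyNormalized_of_le_normalizer (M := F) hMS hMn
  have hrec := receptive_of_fullyNormalized hS hF hfn
  set zM : M := ⟨z, hzM⟩
  set uM : M := ⟨u, hu⟩
  have hzMo : orderOf zM = p := by rw [← Subgroup.orderOf_coe]; exact hzo
  have hzpow : ∀ m : M, (m : Ω) ∈ Subgroup.zpowers z → ∃ k : ℤ, m = zM ^ k := fun m hm => by
    obtain ⟨k, hk⟩ := Subgroup.mem_zpowers_iff.1 hm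
    exact ⟨k, Subtype.ext (by rw [SubgroupClass.coe_zpow]; exact hk.symm)⟩
  set t : MulAut M := conjAut M S ⟨g, hPS hgP, hMn (hPS hgP)⟩ with htdef
  have htI : t ∈ autInducedBy S M := range_conjAut (P := M) S ▸ ⟨_, rfl⟩
  have htA : t ∈ F.autGroup M := autInducedBy_le_autGroup hMS htI
  have htz : t zM = zM := Subtype.ext (hzS g (hPS hgP))
  have hts : ∀ m : M, ∃ k : ℤ, t m = m * zM ^ k := fun m => by
    obtain ⟨k, hk⟩ := hzpow (t m * m⁻¹) (hcomm g hgP m (hMP m.2))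
    exact ⟨k, by rw [← hk, mul_comm (t m), mul_inv_cancel_left]⟩
  choose f hf using hts
  -- the only fixed points of the whole of `P` on `M` are centralised by `g`
  set x : M := α zM with hxdef
  have hxo : orderOf x = p := (MulEquiv.orderOf_eq (α : M ≃* M) zM).trans hzMo
  -- `x` is not fixed by `t`
  have hxt : t x ≠ x := by
    intro hfix
    -- otherwise `P` centralises `x`, and the extension of `α⁻¹` to `P` moves `Z` off itself
    have hcx : ∀ h ∈ P, h * (x : Ω) * h⁻¹ = x := by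
      intro h hh
      have hK : P ≤ Subgroup.centralizer {(x : Ω)} := by
        have h1 : (M ⊔ Subgroup.zpowers g) ≤ Subgroup.centralizer {(x : Ω)} := by
          refine sup_le (fun m hm => Subgroup.mem_centralizer_singleton_iff.2 (hMab m hm x x.2))
            (Subgroup.zpowers_le.2 (Subgroup.mem_centralizer_singleton_iff.2 ?_))
          exact mul_inv_eq_iff_eq_mul.1 (congrArg Subtype.val hfix)
        refine le_trans (le_of_eq ?_) h1
        have h2 : M ⊔ Subgroup.zpowers g ≤ P := sup_le hMP (Subgroup.zpowers_le.2 hgP)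
        have h3 := Subgroup.relIndex_mul_relIndex M (M ⊔ Subgroup.zpowers g) P le_sup_left h2
        rw [hMidx] at h3
        rcases (Nat.dvd_prime hp.out).1 (Dvd.intro _ h3) with h4 | h4
        · exfalso
          exact hgM ((Subgroup.relIndex_eq_one.1 h4) (Subgroup.mem_sup_right (Subgroup.mem_zpowers g)))
        · rw [h4] at h3
          have h5 : (M ⊔ Subgroup.zpowers g).relIndex P = 1 :=
            Nat.eq_of_mul_eq_mul_left hp.out.pos (by rw [h3, mul_one])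
          exact le_antisymm (Subgroup.relIndex_eq_one.1 h5) h2
      exact mul_inv_eq_iff_eq_mul.2 (Subgroup.mem_centralizer_singleton_iff.1 (hK hh))
    set R : Subgroup Ω := Subgroup.zpowers (x : Ω)
    have hRM : R ≤ M := Subgroup.zpowers_le.2 x.2
    set ψ : R →* Ω := (M.subtype.comp (α⁻¹ : MulAut M).toMonoidHom).comp (Subgroup.inclusion hRM)
    have hψ : ψ ∈ F.Hom R := restrict ((mem_autGroup hMS).1 (inv_mem hα)) hRM
    have hψx : ψ ⟨x, Subgroup.mem_zpowers _⟩ = z := by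
      show ((α⁻¹ x : M) : Ω) = z
      rw [hxdef, MulAut.inv_apply_self]
    have hψr : ψ.range = Subgroup.zpowers z := by
      rw [← hψx, ← MonoidHom.map_zpowers, MonoidHom.range_eq_map]
      congr 1
      symm
      rw [eq_top_iff]
      rintro ⟨_, k, rfl⟩ -
      exact ⟨k, Subtype.ext (by simp)⟩
    have hZS : Subgroup.zpowers z ≤ S := Subgroup.zpowers_le.2 (hMS hzM)
    have hZn : S ≤ Subgroup.normalizer (Subgroup.zpowers z : Set Ω) := fun s hs => by
      rw [Subgroup.mem_normalizer_iff]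
      intro y
      have hc : ∀ k : ℤ, s * z ^ k * s⁻¹ = z ^ k := fun k => by rw [← conj_zpow, hzS s hs]
      constructor
      · rintro ⟨k, rfl⟩; exact ⟨k, (hc k).symm⟩
      · rintro ⟨k, hk⟩
        exact ⟨k, (mul_left_cancel (mul_right_cancel ((hc k).trans hk)))⟩
    have hrecZ := receptive_of_fullyNormalized hS hF (isFullyNormalized_of_le_normalizer (M := F) hZS hZn)
    obtain ⟨χ, hχ, hag⟩ := hrecZ.2 R ψ hψ hψr
    have hPe : P ≤ extender S R ψ := fun h hh => centralizerIn_le_extender ⟨hPS hh,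
      Subgroup.mem_centralizer_iff.2 fun y hy => by
        obtain ⟨k, rfl⟩ := hy
        have : h * (x : Ω) ^ k * h⁻¹ = (x : Ω) ^ k := by rw [← conj_zpow, hcx h hh]
        exact (mul_inv_eq_iff_eq_mul.1 this).symm⟩
    have hres := restrict hχ hPe
    set β := χ.comp (Subgroup.inclusion hPe)
    have hβP : ∀ y, β y ∈ P := fun y => hP.2 P le_rfl _ hres y
    -- `β` fixes the line of `z`
    have hzline : β ⟨z, hMP hzM⟩ ∈ Subgroup.zpowers z := by
      have hgu1 : g * u * g⁻¹ * u⁻¹ ≠ 1 := fun e => hgu (by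
        rw [mul_inv_eq_one, mul_inv_eq_iff_eq_mul] at e; exact e)
      obtain ⟨k, hk⟩ := Subgroup.mem_zpowers_iff.1 (hcomm g hgP u (hMP hu))
      have hk0 : ¬ (p : ℤ) ∣ k := by
        rintro ⟨b, rfl⟩
        refine hgu1 ?_
        rw [← hk, zpow_mul, zpow_natCast, ← hzo, pow_orderOf_eq_one, one_zpow]
      obtain ⟨a, b, hab⟩ := (Nat.prime_iff_prime_int.1 hp.out).coprime_iff_not_dvd.2 hk0
      have hz1 : z = (g * u * g⁻¹ * u⁻¹) ^ b := by
        have h6 : z ^ (k * b) = z := by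
          rw [show k * b = 1 + (p : ℤ) * (-a) by linarith, zpow_add, zpow_one, zpow_mul, zpow_natCast,
            ← hzo, pow_orderOf_eq_one, one_zpow, mul_one]
        rw [← hk, ← zpow_mul, h6]
      have h7 : (⟨z, hMP hzM⟩ : P) = (⟨g, hgP⟩ * ⟨u, hMP hu⟩ * ⟨g, hgP⟩⁻¹ * ⟨u, hMP hu⟩⁻¹) ^ b :=
        Subtype.ext (by simpa using hz1)
      rw [h7, map_zpow, map_mul, map_mul, map_mul, map_inv, map_inv]
      exact Subgroup.zpow_mem _ (hcomm _ (hβP _) _ (hβP _)) b
    have hxline : β ⟨x, hMP x.2⟩ = z := (hag x (Subgroup.mem_zpowers _) (hPe (hMP x.2))).trans hψx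
    -- injectivity: two elements into one line of order `p`
    set zP : P := ⟨z, hMP hzM⟩
    set xP : P := ⟨x, hMP x.2⟩
    obtain ⟨k, hk⟩ := Subgroup.mem_zpowers_iff.1 hzline
    have h8 : zP = xP ^ k := F.injective_of_mem hres (by rw [map_zpow]; exact hk.symm.trans (by rw [hxline]))
    have h9 : z ∈ Subgroup.zpowers (x : Ω) := ⟨k, by simpa [zP, xP] using (congrArg Subtype.val h8).symm⟩
    refine hnot ?_
    have h10 : Subgroup.zpowers z = Subgroup.zpowers (x : Ω) := by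
      haveI : Finite (Subgroup.zpowers (x : Ω)) := finite_of_le ((Subgroup.zpowers_le.2 x.2).trans hMS)
      refine Subgroup.eq_of_le_of_card_ge (Subgroup.zpowers_le.2 h9) ?_
      rw [Nat.card_zpowers, Nat.card_zpowers, hzo, ← hxo, Subgroup.orderOf_coe]
    rw [h10]
    exact Subgroup.mem_zpowers _
  set A0 := F.autGroup M
  obtain ⟨-, T0, hT0⟩ := fullyAutomized_of_fullyNormalized hS hF hfn
  -- `t` is not in `O_p`
  set tA : A0 := ⟨t, htA⟩
  have htcore : tA ∉ Cfsg.pCore p A0 := by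
    intro h
    haveI := CfsgLib.Subnormal.normal_pCore (G := A0) p
    have h1 : (⟨α, hα⟩ : A0)⁻¹ * tA * ((⟨α, hα⟩ : A0)⁻¹)⁻¹ ∈ (T0 : Subgroup A0) :=
      CfsgLib.PReduced.pCore_le_sylow T0 ((inferInstance : (Cfsg.pCore p A0).Normal).conj_mem tA h ⟨α, hα⟩⁻¹)
    rw [hT0, Subgroup.mem_subgroupOf] at h1
    obtain ⟨s, hs, hsx⟩ := mem_autInducedBy.1 h1
    have h2 : ((α⁻¹ (t (α zM)) : M) : Ω) = z := by
      have := hsx zM
      simpa [tA, hzS s hs, zM] using this
    have h3 : α⁻¹ (t x) = zM := Subtype.ext h2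
    exact hxt (by rw [hxdef] at h3 ⊢; simpa using congrArg α h3)
  obtain ⟨γ, hγ⟩ : ∃ γ : A0, ¬ IsPGroup p ↥(Subgroup.closure {tA, γ * tA * γ⁻¹}) := by
    by_contra h
    push Not at h
    exact htcore (CfsgLib.Subnormal.mem_pCore_of_forall_isPGroup h)
  set t' : MulAut M := (γ : MulAut M) * t * (γ : MulAut M)⁻¹ with ht'
  set y : M := (γ : MulAut M) zM with hydef
  have ht'y : t' y = y := by rw [ht', hydef, MulAut.mul_apply, MulAut.mul_apply, MulAut.inv_apply_self, htz]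
  have ht's : ∀ m : M, t' m = m * y ^ f ((γ : MulAut M)⁻¹ m) := fun m => by
    rw [ht', MulAut.mul_apply, MulAut.mul_apply, hf, map_mul, map_zpow, MulAut.apply_inv_self]
  -- both pairs are non-orthogonal
  have hgenp : ∀ (a b : M) (s s' : MulAut M), s a = a → s' a = a → (∀ m, ∃ i j : ℤ, s m = m * (a ^ i * b ^ j)) →
      (∀ m, ∃ i j : ℤ, s' m = m * (a ^ i * b ^ j)) → (∃ k : ℤ, s b = b * a ^ k) → (∃ k : ℤ, s' b = b * a ^ k) →
      IsPGroup p ↥(Subgroup.closure {s, s'}) := by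
    intro a b s s' h1 h1' h3 h3' h2 h2'
    let U : Subgroup (MulAut M) :=
      { carrier := {σ | σ a = a ∧ (∃ k : ℤ, σ b = b * a ^ k) ∧ ∀ m, ∃ i j : ℤ, σ m = m * (a ^ i * b ^ j)}
        one_mem' := ⟨rfl, ⟨0, by simp⟩, fun m => ⟨0, 0, by simp⟩⟩
        mul_mem' := by
          rintro σ τ ⟨e1, ⟨k, e2⟩, e3⟩ ⟨d1, ⟨l, d2⟩, d3⟩
          refine ⟨by rw [MulAut.mul_apply, d1, e1], ⟨k + l, by
            rw [MulAut.mul_apply, d2, map_mul, map_zpow, e1, e2, zpow_add, mul_assoc]⟩, fun m => ?_⟩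
          obtain ⟨i, j, d⟩ := d3 m
          obtain ⟨i', j', e⟩ := e3 m
          refine ⟨i + i' + k * j, j + j', ?_⟩
          rw [MulAut.mul_apply, d, map_mul, e, map_mul, map_zpow, map_zpow, e1, e2, mul_zpow, ← zpow_mul,
            zpow_add, zpow_add, zpow_add]
          simp only [mul_assoc, mul_comm, mul_left_comm]
        inv_mem' := by
          rintro σ ⟨e1, ⟨k, e2⟩, e3⟩
          have f1 : σ⁻¹ a = a := by conv_lhs => rw [← e1, MulAut.inv_apply_self]
          have f2 : σ⁻¹ b = b * a ^ (-k) := by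
            apply σ.injective
            rw [MulAut.apply_inv_self, map_mul, map_zpow, e1, e2, mul_assoc, ← zpow_add, add_neg_cancel, zpow_zero,
              mul_one]
          refine ⟨f1, ⟨-k, f2⟩, fun m => ?_⟩
          obtain ⟨i, j, e⟩ := e3 m
          refine ⟨-i + k * j, -j, ?_⟩
          have : σ⁻¹ (σ m) = σ⁻¹ m * (σ⁻¹ (a ^ i * b ^ j)) := by rw [← map_mul, e]
          rw [MulAut.inv_apply_self, map_mul, map_zpow, map_zpow, f1, f2, mul_zpow, ← zpow_mul] at this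
          rw [eq_comm, ← eq_mul_inv_iff_mul_eq] at this
          rw [this, mul_inv_rev, mul_inv_rev, ← zpow_neg, ← zpow_neg, ← zpow_neg, zpow_add, neg_mul, neg_neg]
          ac_rfl }
    have hUp : IsPGroup p U := fun σ => ⟨2, Subtype.ext (by
      rw [Subgroup.coe_pow, Subgroup.coe_one, pow_two]
      exact pow_sq_eq_one hexp σ.2.1 σ.2.2.1 σ.2.2.2)⟩
    refine hUp.to_le ((Subgroup.closure_le _).2 ?_)
    rintro σ (rfl | rfl)
    · exact ⟨h1, h2, h3⟩
    · exact ⟨h1', h2', h3'⟩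
  have hcl : ¬ IsPGroup p ↥(Subgroup.closure {t, t'}) := by
    intro h
    refine hγ ?_
    have e : (Subgroup.closure {tA, γ * tA * γ⁻¹}).map A0.subtype = Subgroup.closure {t, t'} := by
      rw [MonoidHom.map_closure, Set.image_pair]; rfl
    rw [← e] at h
    exact h.of_equiv (Subgroup.equivMapOfInjective _ _ A0.subtype_injective).symm
  have hty : t y ≠ y := by
    intro hy
    refine hcl (hgenp y zM t t' hy ht'y (fun m => ⟨0, f m, ?_⟩) (fun m => ⟨f ((γ : MulAut M)⁻¹ m), 0, ?_⟩)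
      ⟨0, by rw [htz, zpow_zero, mul_one]⟩ ⟨_, ht's zM⟩)
    · rw [hf, zpow_zero, one_mul]
    · rw [ht's, zpow_zero, mul_one]
  have ht'z : t' zM ≠ zM := by
    intro hz'
    refine hcl (hgenp zM y t t' htz hz' (fun m => ⟨f m, 0, ?_⟩) (fun m => ⟨0, f ((γ : MulAut M)⁻¹ m), ?_⟩)
      ⟨_, hf y⟩ ⟨0, by rw [ht'y, zpow_zero, mul_one]⟩)
    · rw [hf, zpow_zero, mul_one]
    · rw [ht's, zpow_zero, one_mul]
  have hfy : ¬ (p : ℤ) ∣ f y := by
    rintro ⟨b, hb⟩
    exact hty (by rw [hf, hb, zpow_mul, zpow_natCast, hexp, one_zpow, mul_one])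
  have hfz : ¬ (p : ℤ) ∣ f ((γ : MulAut M)⁻¹ zM) := by
    rintro ⟨b, hb⟩
    exact ht'z (by rw [ht's, hb, zpow_mul, zpow_natCast, hexp, one_zpow, mul_one])
  obtain ⟨m, hm1, hm2⟩ := exists_pow_shear (t := t) (hexp zM) hfy htz (hf y) 1
  obtain ⟨m', hm1', hm2'⟩ := exists_pow_shear (t := t') (hexp y) hfz ht'y (ht's zM) (-1)
  rw [zpow_one] at hm2
  rw [zpow_neg_one] at hm2'
  set T := t ^ m with hTdef
  set T' := t' ^ m' with hT'def
  set W := T * T' * T with hWdef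
  have hWA : W ∈ A0 := mul_mem (mul_mem (pow_mem htA _)
    (pow_mem (mul_mem (mul_mem γ.2 htA) (inv_mem γ.2)) _)) (pow_mem htA _)
  have hWz : W zM = y⁻¹ := by
    simp only [hWdef, MulAut.mul_apply, hm1, hm2', map_mul, map_inv, hm2]
    rw [mul_inv_rev, ← mul_assoc, mul_inv_cancel, one_mul]
  have hWy : W y = zM := by
    simp only [hWdef, MulAut.mul_apply, hm1, hm2, hm1', hm2', map_mul, map_inv]
    rw [mul_inv_rev, mul_comm y zM]
    group
  -- elements fixed by both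
  have hdec : ∀ m : M, ∃ (i j : ℤ) (w : M), m = zM ^ i * y ^ j * w ∧ t w = w ∧ t' w = w := by
    intro v
    obtain ⟨a, b, hab⟩ := (Nat.prime_iff_prime_int.1 hp.out).coprime_iff_not_dvd.2 hfy
    obtain ⟨c, d, hcd⟩ := (Nat.prime_iff_prime_int.1 hp.out).coprime_iff_not_dvd.2 hfz
    set j := f v * b with hj
    set w1 := v * y ^ (-j) with hw1
    set i := f ((γ : MulAut M)⁻¹ w1) * d with hi
    refine ⟨i, j, w1 * zM ^ (-i), ?_, ?_, ?_⟩
    · rw [hw1]
      calc v = v * (y ^ j * y ^ (-j)) * (zM ^ i * zM ^ (-i)) := by group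
        _ = _ := by ac_rfl
    · have h1 : t w1 = w1 := by
        rw [hw1, map_mul, map_zpow, hf v, hf y, mul_zpow, ← zpow_mul]
        rw [show f y * -j = -(f v) + (p : ℤ) * (a * f v) by rw [hj]; linear_combination -(f v) * hab,
          zpow_add, zpow_mul, zpow_natCast, hexp, one_zpow, mul_one, zpow_neg zM]
        simp only [mul_assoc, mul_left_comm (zM ^ f v), mul_inv_cancel, mul_one]
      rw [map_mul, map_zpow, h1, htz]
    · rw [map_mul, map_zpow, ht's w1, ht's zM, mul_zpow, ← zpow_mul]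
      rw [show f ((γ : MulAut M)⁻¹ zM) * -i = -(f ((γ : MulAut M)⁻¹ w1)) + (p : ℤ) * (c * f ((γ : MulAut M)⁻¹ w1))
        by rw [hi]; linear_combination -(f ((γ : MulAut M)⁻¹ w1)) * hcd,
        zpow_add, zpow_mul, zpow_natCast, hexp, one_zpow, mul_one, zpow_neg y]
      simp only [mul_assoc, mul_left_comm (y ^ f ((γ : MulAut M)⁻¹ w1)), mul_inv_cancel, mul_one]
  set W2 := W * W
  have hW2z : W2 zM = zM⁻¹ := by rw [MulAut.mul_apply, hWz, map_inv, hWy]
  have hW2y : W2 y = y⁻¹ := by rw [MulAut.mul_apply, hWy, hWz]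
  have hW2w : ∀ w : M, t w = w → t' w = w → W2 w = w := by
    intro w h1 h2
    have e1 : ∀ k : ℕ, (t ^ k) w = w := fun k => by
      induction k with
      | zero => rfl
      | succ k ih => rw [pow_succ, MulAut.mul_apply, h1, ih]
    have e2 : ∀ k : ℕ, (t' ^ k) w = w := fun k => by
      induction k with
      | zero => rfl
      | succ k ih => rw [pow_succ, MulAut.mul_apply, h2, ih]
    have e3 : W w = w := by simp only [hWdef, hTdef, hT'def, MulAut.mul_apply, e1, e2]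
    rw [MulAut.mul_apply, e3, e3]
  have hcommt : ∀ v : M, W2 (t v) = t (W2 v) := by
    intro v
    obtain ⟨i, j, w, rfl, h1, h2⟩ := hdec v
    simp only [map_mul, map_zpow, map_inv, htz, hf y, hW2z, hW2y, hW2w w h1 h2, h1, mul_inv_rev]
    simp only [mul_zpow, inv_zpow, mul_inv_rev]
    ac_rfl
  -- extend `W2` to `P`
  have hW2A : W2 ∈ A0 := mul_mem hWA hWA
  set φ : M →* Ω := M.subtype.comp (W2 : M ≃* M).toMonoidHom
  have hφ : φ ∈ F.Hom M := (mem_autGroup hMS).1 hW2A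
  have hr : φ.range = M := subgroupOf_range_top (F.injective_of_mem hφ) hMS fun v => (W2 v).2
  obtain ⟨χ, hχ, hag⟩ := hrec.2 M φ hφ hr
  have hPgen : P ≤ M ⊔ Subgroup.zpowers g := by
    have h2 : M ⊔ Subgroup.zpowers g ≤ P := sup_le hMP (Subgroup.zpowers_le.2 hgP)
    have h3 := Subgroup.relIndex_mul_relIndex M (M ⊔ Subgroup.zpowers g) P le_sup_left h2
    rw [hMidx] at h3
    rcases (Nat.dvd_prime hp.out).1 (Dvd.intro _ h3) with h4 | h4
    · exact absurd ((Subgroup.relIndex_eq_one.1 h4) (Subgroup.mem_sup_right (Subgroup.mem_zpowers g))) hgM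
    · rw [h4] at h3
      exact Subgroup.relIndex_eq_one.1 (Nat.eq_of_mul_eq_mul_left hp.out.pos (by rw [h3, mul_one]))
  have hPe : P ≤ extender S M φ := hPgen.trans (sup_le (le_extender hφ) (Subgroup.zpowers_le.2
    (mem_extender.2 ⟨hPS hgP, hMn (hPS hgP), g, hPS hgP, fun v hv => congrArg Subtype.val (hcommt v)⟩)))
  have hres := restrict hχ hPe
  set β := χ.comp (Subgroup.inclusion hPe)
  have hβP : ∀ v, β v ∈ P := fun v => hP.2 P le_rfl _ hres v
  have hβM : ∀ v : M, β ⟨v, hMP v.2⟩ = ((W2 v : M) : Ω) := fun v => hag v v.2 (hPe (hMP v.2))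
  -- `β g` is congruent to `g`
  set h := g⁻¹ * β ⟨g, hgP⟩ with hh
  have hhP : h ∈ P := P.mul_mem (P.inv_mem hgP) (hβP _)
  have hhc : ∀ v ∈ M, h * v = v * h := by
    intro v hv
    obtain ⟨v', hv'⟩ : ∃ v' : M, W2 v' = ⟨v, hv⟩ := ⟨W2⁻¹ ⟨v, hv⟩, MulAut.apply_inv_self _ _ _⟩
    have h4 := hβM (t v')
    rw [hcommt, hv'] at h4
    have h5 := hβM v'
    rw [hv'] at h5
    have e : ((t v' : M) : Ω) = g * (v' : Ω) * g⁻¹ := rfl
    have h1 : β ⟨g, hgP⟩ * v * (β ⟨g, hgP⟩)⁻¹ = g * v * g⁻¹ := by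
      have e6 : (⟨((t v' : M) : Ω), hMP (t v').2⟩ : P) = ⟨g, hgP⟩ * ⟨v', hMP v'.2⟩ * (⟨g, hgP⟩ : P)⁻¹ := rfl
      rw [e6, map_mul, map_mul, map_inv, h5] at h4
      exact h4
    calc g⁻¹ * β ⟨g, hgP⟩ * v = g⁻¹ * (β ⟨g, hgP⟩ * v * (β ⟨g, hgP⟩)⁻¹) * β ⟨g, hgP⟩ := by group
      _ = g⁻¹ * (g * v * g⁻¹) * β ⟨g, hgP⟩ := by rw [h1]
      _ = v * (g⁻¹ * β ⟨g, hgP⟩) := by group
  have hhM : h ∈ M := by
    by_contra hn
    have hgen' : P ≤ M ⊔ Subgroup.zpowers h := by
      have h2 : M ⊔ Subgroup.zpowers h ≤ P := sup_le hMP (Subgroup.zpowers_le.2 hhP)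
      have h3 := Subgroup.relIndex_mul_relIndex M (M ⊔ Subgroup.zpowers h) P le_sup_left h2
      rw [hMidx] at h3
      rcases (Nat.dvd_prime hp.out).1 (Dvd.intro _ h3) with h4 | h4
      · exact absurd ((Subgroup.relIndex_eq_one.1 h4) (Subgroup.mem_sup_right (Subgroup.mem_zpowers h))) hn
      · rw [h4] at h3
        exact Subgroup.relIndex_eq_one.1 (Nat.eq_of_mul_eq_mul_left hp.out.pos (by rw [h3, mul_one]))
    have hcen : M ⊔ Subgroup.zpowers h ≤ Subgroup.centralizer {u} :=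
      sup_le (fun v hv => Subgroup.mem_centralizer_singleton_iff.2 (hMab v hv u hu))
        (Subgroup.zpowers_le.2 (Subgroup.mem_centralizer_singleton_iff.2 (hhc u hu)))
    exact hgu (Subgroup.mem_centralizer_singleton_iff.1 (hcen (hgen' hgP)))
  have hgh : (g * h) ^ p = g ^ p := by
    obtain ⟨k, hk⟩ := Subgroup.mem_zpowers_iff.1 (hcomm h hhP g hgP)
    have hc : ⁅h, g⁆ = z ^ k := by rw [commutatorElement_def, hk]
    have hzc : (⁅(⟨h, hhP⟩ : P), (⟨g, hgP⟩ : P)⁆) ∈ Subgroup.center P := Subgroup.mem_center_iff.2 fun w => by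
      apply Subtype.ext
      show (w : Ω) * ⁅h, g⁆ = ⁅h, g⁆ * (w : Ω)
      rw [hc]
      exact Commute.zpow_right (h := show Commute (w : Ω) z from mul_inv_eq_iff_eq_mul.1 (hzS w (hPS w.2))) k
    have hpow := congrArg Subtype.val (CfsgLib.PGroup.mul_pow_central (x := (⟨g, hgP⟩ : P)) (y := ⟨h, hhP⟩) hzc p)
    change (g * h) ^ p = g ^ p * h ^ p * ⁅h, g⁆ ^ (p.choose 2) at hpow
    rw [hpow, hMexp h hhM, mul_one]
    obtain ⟨q, hq⟩ := CfsgLib.PGroup.dvd_choose_two (p := p) hp2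
    rw [hq, hc, pow_mul, ← zpow_natCast (z ^ k), ← zpow_mul, mul_comm k, zpow_mul, zpow_natCast, ← hzo,
      pow_orderOf_eq_one, one_zpow, one_pow, mul_one]
  have hgp : (⟨g ^ p, P.pow_mem hgP p⟩ : P) = (⟨g, hgP⟩ : P) ^ p := rfl
  obtain ⟨k, hk⟩ := Subgroup.mem_zpowers_iff.1 hgz
  have hk0 : ¬ (p : ℤ) ∣ k := by
    rintro ⟨b, rfl⟩
    refine hgM (hMmem g hgP ?_)
    rw [← hk, zpow_mul, zpow_natCast, ← hzo, pow_orderOf_eq_one, one_zpow]
  have e1 : β ((⟨g, hgP⟩ : P) ^ p) = g ^ p := by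
    rw [map_pow, show β ⟨g, hgP⟩ = g * h by rw [hh, mul_inv_cancel_left], hgh]
  have e2 : β ((⟨g, hgP⟩ : P) ^ p) = (g ^ p)⁻¹ := by
    have : (⟨g, hgP⟩ : P) ^ p = ⟨((zM ^ k : M) : Ω), hMP (zM ^ k).2⟩ := Subtype.ext (by
      show g ^ p = ((zM ^ k : M) : Ω)
      rw [SubgroupClass.coe_zpow]; exact hk.symm)
    rw [this, hβM, map_zpow, hW2z, inv_zpow, Subgroup.coe_inv, SubgroupClass.coe_zpow]
    rw [← hk]
  rw [e1, ← hk, eq_inv_iff_mul_eq_one, ← zpow_add, ← orderOf_dvd_iff_zpow_eq_one, hzo] at e2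
  rw [show k + k = 2 * k by ring] at e2
  rcases (Nat.prime_iff_prime_int.1 hp.out).dvd_or_dvd e2 with h5 | h5
  · exact hp2 ((Nat.prime_dvd_prime_iff_eq hp.out Nat.prime_two).1 (by exact_mod_cast h5))
  · exact hk0 h5

end CfsgLib.GenExtra
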